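import Cfsg.Agent.H199.PslAut
import Cfsg.Agent.H431.PSLTwoSpec

/-!
# A group between `PSL_2(p)` and its automorphism group (helper432)

`eq_top`: `S ⊲ X`, `C_X(S) = 1`, `S ≅ PSL_2(p)`, `t ≠ 2, p` a prime divisor of `|S|` such that `X` has no element of
order `2 t`: `S = X`.
-/

set_option autoImplicit false

namespace Cfsg.Agent.H432.PG.Aut

open Matrix Cfsg.Agent.H199.PslAut
open Cfsg.Agent.ClassicalGeometry.AutPSL.Root
open Cfsg.Agent.ClassicalGeometry.AutPSL.Auto

section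
variable {F : Type*} [Field F]

theorem psi_conj_of_sq {g : GL (Fin 2) F} {c : Fˣ} (h : Matrix.GeneralLinearGroup.det g = c ^ 2) :
    ∃ s : SpecialLinearGroup (Fin 2) F, Psi 2 F g = MulAut.conj (pr s) := by
  have hd : ((g : Matrix (Fin 2) (Fin 2) F)).det = (c : F) ^ 2 := by
    have := congrArg Units.val h
    simpa using this
  have hc : (c : F) ≠ 0 := c.ne_zero
  let s : SpecialLinearGroup (Fin 2) F := ⟨((c : F)⁻¹) • (g : Matrix (Fin 2) (Fin 2) F), by
    rw [Matrix.det_smul, hd, Fintype.card_fin, ← mul_pow, inv_mul_cancel₀ hc, one_pow]⟩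
  refine ⟨s, ?_⟩
  have hg : g = scal 2 F c * (s : GL (Fin 2) F) := by
    apply Units.ext
    rw [Units.val_mul, coe_scal]
    change (g : Matrix (Fin 2) (Fin 2) F) = (scalar (Fin 2) (c : F)) * (((c : F)⁻¹) • (g : Matrix (Fin 2) (Fin 2) F))
    rw [Matrix.mul_smul, ← Matrix.smul_mul]
    have : ((c : F)⁻¹) • (scalar (Fin 2) (c : F)) = (1 : Matrix (Fin 2) (Fin 2) F) := by
      rw [Matrix.scalar_apply, Matrix.smul_eq_diagonal_mul, Matrix.diagonal_mul_diagonal]
      rw [← Matrix.diagonal_one]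
      congr 1
      funext i
      exact inv_mul_cancel₀ hc
    rw [this, one_mul]
  rw [hg, map_mul, Psi_scal, one_mul, Psi_coe]

/-- the involution `δ - δ⁻¹` -/
theorem exists_gamma {p : ℕ} [Fact p.Prime] [CharP F p] [Fintype F] (h2 : (2 : F) ≠ 0) (δ : SpecialLinearGroup (Fin 2) F)
    (hδ : ¬ (pr δ) ^ p = 1) : ∃ γ : GL (Fin 2) F, Psi 2 F γ ≠ 1 ∧ Psi 2 F γ * Psi 2 F γ = 1 ∧ Psi 2 F γ (pr δ) = pr δ := by
  set a := δ.1 0 0 with ha
  set b := δ.1 0 1 with hb
  set c := δ.1 1 0 with hc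
  set d := δ.1 1 1 with hd
  have hdet : a * d - b * c = 1 := by
    have := δ.2
    rw [Matrix.det_fin_two] at this
    exact this
  have hδm : δ.1 = !![a, b; c, d] := Matrix.eta_fin_two _
  let M : Matrix (Fin 2) (Fin 2) F := !![a - d, 2 * b; 2 * c, d - a]
  have hM : M.det = 4 - (a + d) ^ 2 := by
    simp only [M, Matrix.det_fin_two_of]
    linear_combination 4 * hdet
  have hne : (4 : F) - (a + d) ^ 2 ≠ 0 := by
    intro h0
    apply hδ
    rw [← map_pow, pr_eq_one_iff]
    have h3 : (a + d) ^ 2 = 2 ^ 2 := by linear_combination (-1) * h0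
    rcases sq_eq_sq_iff_eq_or_eq_neg.1 h3 with h | h
    · exact H431.PSLTwoSpec.pow_char_mem_center (t := (1 : F)) (one_mul 1) δ (by rw [← ha, ← hd, h]; ring)
    · exact H431.PSLTwoSpec.pow_char_mem_center (t := (-1 : F)) (by ring) δ (by rw [← ha, ← hd, h]; ring)
  have hu : IsUnit M.det := by rw [hM]; exact isUnit_iff_ne_zero.2 hne
  let γ : GL (Fin 2) F := Matrix.GeneralLinearGroup.mkOfDetNeZero M (by rw [hM]; exact hne)
  have hγ : (γ : Matrix (Fin 2) (Fin 2) F) = M := rfl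
  refine ⟨γ, ?_, ?_, ?_⟩
  · intro h1
    obtain ⟨u, hu⟩ := (Psi_eq_one_iff le_rfl).1 h1
    have h3 : M = scalar (Fin 2) (u : F) := by rw [← hγ, hu]; rfl
    have h4 := congrFun (congrFun h3 0) 0
    have h5 := congrFun (congrFun h3 1) 1
    simp only [M, Matrix.scalar_apply, Matrix.diagonal_apply_eq, Matrix.of_apply, Matrix.cons_val', Matrix.cons_val_zero,
      Matrix.cons_val_one, Matrix.cons_val_fin_one] at h4 h5
    have h6 : (2 : F) * u = 0 := by linear_combination (-1) * h4 - h5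
    rcases mul_eq_zero.1 h6 with h | h
    · exact h2 h
    · exact u.ne_zero h
  · rw [← map_mul, Psi_eq_one_iff le_rfl]
    refine ⟨-(Matrix.GeneralLinearGroup.det γ), ?_⟩
    apply Units.ext
    rw [Units.val_mul, coe_scal, hγ]
    have h3 : ((-(Matrix.GeneralLinearGroup.det γ) : Fˣ) : F) = -M.det := rfl
    rw [h3]
    ext i j
    fin_cases i <;> fin_cases j <;> simp [M, Matrix.mul_apply, Fin.sum_univ_two, Matrix.det_fin_two_of] <;> ring
  · rw [Psi_pr]
    congr 1
    apply Subtype.ext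
    rw [coe_cj, hγ]
    have h3 : M * δ.1 = δ.1 * M := by
      rw [hδm]
      ext i j
      fin_cases i <;> fin_cases j <;> simp [M, Matrix.mul_apply, Fin.sum_univ_two] <;> ring
    have h4 : (γ : Matrix (Fin 2) (Fin 2) F) * ((γ⁻¹ : GL (Fin 2) F) : Matrix (Fin 2) (Fin 2) F) = 1 := by
      rw [← Units.val_mul, mul_inv_cancel, Units.val_one]
    rw [h3, ← hγ, mul_assoc, h4, mul_one]

/-- the product of two nonsquares is a square -/
theorem isSquare_mul [Fintype F] (h2 : ringChar F ≠ 2) {a b : Fˣ} (ha : ¬ IsSquare a) (hb : ¬ IsSquare b) :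
    IsSquare (a * b) := by
  rw [FiniteField.unit_isSquare_iff h2] at ha hb ⊢
  have key : ∀ x : Fˣ, ¬ x ^ (Fintype.card F / 2) = 1 → x ^ (Fintype.card F / 2) = -1 := by
    intro x hx
    rcases FiniteField.pow_dichotomy h2 (a := (x : F)) x.ne_zero with h | h
    · exact absurd (Units.ext (by rw [Units.val_pow_eq_pow_val, h, Units.val_one])) hx
    · apply Units.ext
      rw [Units.val_pow_eq_pow_val, h, Units.val_neg, Units.val_one]
  rw [mul_pow, key a ha, key b hb]
  simp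

end

open Subgroup in
/-- **`S = X`.** -/
theorem eq_top {X : Type*} [Group X] [Finite X] (S : Subgroup X) [S.Normal] (hc : centralizer (S : Set X) = ⊥)
    {p : ℕ} [Fact p.Prime] (hp2 : p ≠ 2) (e : ↥S ≃* Matrix.ProjectiveSpecialLinearGroup (Fin 2) (ZMod p)) {t : ℕ}
    (ht : t.Prime) (ht2 : t ≠ 2) (htp : t ≠ p) (htS : t ∣ Nat.card ↥S) (h : ¬ ∃ x : X, orderOf x = 2 * t) : S = ⊤ := by
  have hp : p.Prime := Fact.out
  by_contra hne
  have h2 : (2 : ZMod p) ≠ 0 := by
    intro h0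
    have h1 : ((2 : ℕ) : ZMod p) = 0 := by exact_mod_cast h0
    rw [ZMod.natCast_eq_zero_iff] at h1
    exact hp2 ((Nat.prime_dvd_prime_iff_eq hp Nat.prime_two).1 h1)
  have hchar : ringChar (ZMod p) ≠ 2 := by rw [ZMod.ringChar_zmod_n]; exact hp2
  let φ : X →* MulAut (Matrix.ProjectiveSpecialLinearGroup (Fin 2) (ZMod p)) :=
    (MulAut.congr e).toMonoidHom.comp (MulAut.conjNormal (H := S))
  have hφ : ∀ (x : X) (s : ↥S), φ x (e s) = e ⟨x * s * x⁻¹, (inferInstance : S.Normal).conj_mem s s.2 x⟩ := by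
    intro x s
    change e ((MulAut.conjNormal (H := S) x) (e.symm (e s))) = _
    rw [e.symm_apply_apply]
    rfl
  have hφS : ∀ s : ↥S, φ s = MulAut.conj (e s) := by
    intro s
    apply MulEquiv.ext
    intro y
    obtain ⟨y, rfl⟩ := e.surjective y
    rw [hφ, MulAut.conj_apply, ← map_mul, ← map_inv, ← map_mul]
    rfl
  have hinj : Function.Injective φ := by
    rw [injective_iff_map_eq_one]
    intro x hx
    have h1 : x ∈ centralizer (S : Set X) := by
      rw [Subgroup.mem_centralizer_iff]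
      intro s hs
      have h3 := hφ x ⟨s, hs⟩
      rw [hx, MulAut.one_apply] at h3
      have h4 := congrArg Subtype.val (e.injective h3)
      change s = x * s * x⁻¹ at h4
      rw [eq_mul_inv_iff_mul_eq] at h4
      exact h4
    rw [hc] at h1
    exact Subgroup.mem_bot.1 h1
  -- every element acts as a matrix
  have hmat : ∀ x : X, ∃ g : GL (Fin 2) (ZMod p), φ x = Psi 2 (ZMod p) g := by
    intro x
    rcases exists_form le_rfl (φ x) with ⟨g, σ, h3⟩ | ⟨h3, -⟩
    · refine ⟨g, ?_⟩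
      have hσ : σ = 1 := Subsingleton.elim _ _
      rw [h3, hσ, map_one, mul_one]
    · omega
  obtain ⟨x, hx⟩ : ∃ x : X, x ∉ S := by
    by_contra hcon
    push Not at hcon
    exact hne (Subgroup.eq_top_iff' S |>.2 hcon)
  obtain ⟨g, hg⟩ := hmat x
  have hgs : ¬ IsSquare (Matrix.GeneralLinearGroup.det g) := by
    rintro ⟨c, hcc⟩
    obtain ⟨s, hs⟩ := psi_conj_of_sq (g := g) (c := c) (by rw [hcc, pow_two])
    apply hx
    obtain ⟨s', hs'⟩ := e.surjective (pr s)
    have h3 : φ x = φ s' := by rw [hg, hs, hφS, hs']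
    rw [hinj h3]
    exact s'.2
  -- an element of order `t`
  have := Fact.mk ht
  obtain ⟨y, hy⟩ := exists_prime_orderOf_dvd_card' t htS
  obtain ⟨δ, hδ⟩ := pr_surjective (e y)
  have hδp : ¬ (pr δ) ^ p = 1 := by
    rw [hδ, ← map_pow]
    intro h3
    have h4 : y ^ p = 1 := e.injective (by rw [h3, map_one])
    have h5 := orderOf_dvd_of_pow_eq_one h4
    rw [hy] at h5
    exact htp ((Nat.prime_dvd_prime_iff_eq ht hp).1 h5)
  obtain ⟨γ, h3, h4, h5⟩ := exists_gamma (p := p) h2 δ hδp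
  -- the involution is in `X`
  obtain ⟨z, hz⟩ : ∃ z : X, φ z = Psi 2 (ZMod p) γ := by
    by_cases hsq : IsSquare (Matrix.GeneralLinearGroup.det γ)
    · obtain ⟨c, hcc⟩ := hsq
      obtain ⟨s, hs⟩ := psi_conj_of_sq (g := γ) (c := c) (by rw [hcc, pow_two])
      obtain ⟨s', hs'⟩ := e.surjective (pr s)
      exact ⟨s', by rw [hφS, hs', hs]⟩
    · obtain ⟨c, hcc⟩ := isSquare_mul hchar hgs hsq
      obtain ⟨s, hs⟩ := psi_conj_of_sq (g := g * γ) (c := c) (by rw [map_mul, hcc, pow_two])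
      obtain ⟨s', hs'⟩ := e.surjective (pr s)
      refine ⟨x⁻¹ * s', ?_⟩
      rw [map_mul, map_inv, hg, hφS, hs', ← hs, map_mul]
      group
  apply h
  refine ⟨z * y, ?_⟩
  have hz2 : orderOf z = 2 := by
    apply orderOf_eq_prime
    · apply hinj
      rw [pow_two, map_mul, hz, h4, map_one]
    · intro h6
      apply h3
      rw [← hz, h6, map_one]
  have hzy : Commute z (y : X) := by
    have h6 := hφ z y
    rw [hz, ← hδ, h5, hδ] at h6
    have h7 := congrArg Subtype.val (e.injective h6)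
    change (y : X) = z * y * z⁻¹ at h7
    rw [eq_mul_inv_iff_mul_eq] at h7
    exact h7.symm
  rw [hzy.orderOf_mul_eq_mul_orderOf_of_coprime, hz2, Subgroup.orderOf_coe, hy]
  rw [hz2, Subgroup.orderOf_coe, hy]
  exact (Nat.coprime_primes Nat.prime_two ht).2 ht2.symm

end Cfsg.Agent.H432.PG.Aut
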